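import Cfsg.Agent.H290.Wei.CharOne

/-!
# Names of the characteristic of `²E₆(q)`, the primes of class 12, the order (helper682, S3938)

* `own` : `S` is a simple group of Lie type in characteristic `p`, `|S|` divides the numerator of `|²E₆(q)|` and is
  divisible by all primitive primes of class 12.  `S` is one of eleven groups.
-/

set_option autoImplicit false

namespace Cfsg.Agent.H682.TE6

open Cfsg.Agent.OrdDiv Cfsg.Agent.H436 Cfsg.Agent.H915.GN Cfsg.Agent.H264.GN Cfsg.Agent.H264.FKS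
  Cfsg.Agent.H325.Same Cfsg.Agent.H946.KZ Cfsg.Agent.H290.Wei

variable {p f f₁ c e k s q : ℕ} {g : Grp}

/-- a primitive prime of class `e` divides the numbers `(p ^ f₁) ^ k - 1` with `f e ∣ f₁ k` -/
theorem dvd_of (hs : Prim (p ^ f) e s) (h : f * e ∣ f₁ * k) : s ∣ (p ^ f₁) ^ k - 1 := by
  have h1 := hs.dvd dvd_rfl
  rw [← pow_mul] at h1 ⊢
  exact h1.trans (Nat.pow_sub_one_dvd_pow_sub_one _ h)

theorem ex_dvd {M i₀ i : ℕ} (hf : 1 ≤ f) (h : f₁ * M = f * i₀) (hd : f * 12 ∣ f₁ * i) : 12 * M ∣ i₀ * i := by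
  obtain ⟨j, hj⟩ := hd
  refine ⟨j, Nat.eq_of_mul_eq_mul_left (show 0 < f by omega) ?_⟩
  calc f * (i₀ * i) = f * i₀ * i := by ring
    _ = f₁ * i * M := by rw [← h]; ring
    _ = f * (12 * M * j) := by rw [hj]; ring

theorem dvd_prB {m i : ℕ} (hi : i < m) (h : s ∣ q ^ (2 * (i + 1)) - 1) : s ∣ prB q m :=
  h.trans (List.dvd_prod (List.mem_map_of_mem (List.mem_range.2 hi)))

theorem dvd_glN {n i : ℕ} (hi : i < n) (h : s ∣ q ^ (n - i) - 1) : s ∣ glN n q := by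
  have h1 : q ^ n - q ^ i = q ^ i * (q ^ (n - i) - 1) := by
    rw [Nat.mul_sub, mul_one, ← pow_add, Nat.add_sub_cancel' hi.le]
  have h2 : s ∣ q ^ n - q ^ i := by
    rw [h1]
    exact h.mul_left _
  exact h2.trans (List.dvd_prod (List.mem_map_of_mem (f := fun i => q ^ n - q ^ i) (List.mem_range.2 hi)))

theorem ne_two (hs : Prim q e s) (he : 3 ≤ e) : ¬ s ∣ 2 := hs.not_dvd_two he

theorem not_dvd_gcd_two (hs : Prim q e s) (he : 3 ≤ e) (k : ℕ) : ¬ s ∣ Nat.gcd 2 k :=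
  fun h => ne_two hs he (h.trans (Nat.gcd_dvd_left _ _))

theorem not_dvd_gcd_four (hs : Prim q e s) (he : 3 ≤ e) (k : ℕ) : ¬ s ∣ Nat.gcd 4 k := hs.not_dvd_gcd_four he

/-- the primitive primes of class 5 and 9 do not divide the order -/
theorem not_dvd_te6 (hs : Prim q e s) (he : e = 5 ∨ e = 9) : ¬ s ∣ num (.te6 q) := by
  intro h
  have h2 : ¬ s ∣ 2 := ne_two hs (by omega)
  have key : ∀ m, s ∣ q ^ m - 1 → ¬ s ∣ q ^ m + 1 := by
    intro m h3 h4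
    apply h2
    have h5 := Nat.dvd_sub h4 h3
    have h6 : 1 ≤ q ^ m := by
      rcases Nat.eq_zero_or_pos (q ^ m) with h0 | h0
      · exfalso
        rw [h0] at h4
        exact hs.prime.one_lt.ne' (Nat.dvd_one.1 h4)
      · exact h0
    have h7 : q ^ m + 1 - (q ^ m - 1) = 2 := by omega
    rwa [h7] at h5
  change s ∣ q ^ 36 * ((q ^ 2 - 1) * (q ^ 5 + 1) * (q ^ 6 - 1) * (q ^ 8 - 1) * (q ^ 9 + 1) * (q ^ 12 - 1)) at h
  have hm : ∀ a b, s ∣ a * b → s ∣ a ∨ s ∣ b := fun a b => hs.prime.dvd_mul.1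
  rcases hm _ _ h with h | h
  · exact hs.not_dvd_pow _ h
  rcases hm _ _ h with h | h
  · rcases hm _ _ h with h | h
    · rcases hm _ _ h with h | h
      · rcases hm _ _ h with h | h
        · rcases hm _ _ h with h | h
          · rw [hs.dvd_iff] at h
            rcases he with rfl | rfl <;> norm_num at h
          · rcases he with rfl | rfl
            · exact key 5 (hs.dvd dvd_rfl) h
            · exact hs.not_dvd_add (by norm_num) h
        · rw [hs.dvd_iff] at h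
          rcases he with rfl | rfl <;> norm_num at h
      · rw [hs.dvd_iff] at h
        rcases he with rfl | rfl <;> norm_num at h
    · rcases he with rfl | rfl
      · exact hs.not_dvd_add (by norm_num) h
      · exact key 9 (hs.dvd dvd_rfl) h
  · rw [hs.dvd_iff] at h
    rcases he with rfl | rfl <;> norm_num at h

/-- the kill by a prime which does not divide the order of `T` -/
theorem kill (hs : s.Prime) (hc : den g * c = num g) {N : ℕ} (hd : c ∣ N) (h1 : s ∣ num g) (h2 : ¬ s ∣ den g)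
    (h3 : ¬ s ∣ N) : False := by
  rw [← hc] at h1
  rcases hs.dvd_mul.1 h1 with h | h
  · exact h2 h
  · exact h3 (h.trans hd)

/-- the multiplicity of the primes of class 4 -/
theorem kill_four (hs4 : Prim q 4 s) (hq : 2 ≤ q) {c : ℕ} (hc0 : 0 < c) {D A : ℕ}
    (h1 : D * c = A * ((q ^ 4 - 1) * ((q ^ 8 - 1) * (q ^ 12 - 1)))) (hd : c ∣ num (.te6 q)) (hD : ¬ s ∣ D) : False := by
  have b2 := sub_pos' (d := 2) hq (by norm_num)
  have b6 := sub_pos' (d := 6) hq (by norm_num)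
  have b8 := sub_pos' (d := 8) hq (by norm_num)
  have b12 := sub_pos' (d := 12) hq (by norm_num)
  have hd' : c ∣ q ^ 36 * (((q ^ 2 - 1) * (q ^ 5 + 1) * (q ^ 6 - 1) * (q ^ 9 + 1)) * ((q ^ 8 - 1) * (q ^ 12 - 1))) := by
    refine hd.trans (dvd_of_eq ?_)
    change q ^ 36 * ((q ^ 2 - 1) * (q ^ 5 + 1) * (q ^ 6 - 1) * (q ^ 8 - 1) * (q ^ 9 + 1) * (q ^ 12 - 1)) = _
    ring
  refine cancel_prime hs4.prime (Z := (q ^ 8 - 1) * (q ^ 12 - 1)) (by positivity) hc0 h1 hd' (hs4.dvd dvd_rfl) hD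
    (hs4.not_dvd_pow _) fun h => ?_
  rcases hs4.prime.dvd_mul.1 h with h | h
  · rcases hs4.prime.dvd_mul.1 h with h | h
    · rcases hs4.prime.dvd_mul.1 h with h | h
      · exact hs4.not_dvd_sub (by norm_num) h
      · exact hs4.not_dvd_add (by norm_num) h
    · exact hs4.not_dvd_sub (by norm_num) h
  · exact hs4.not_dvd_add (by norm_num) h

/-- the eleven groups -/
def Own (q : ℕ) (g : Grp) : Prop :=
  g = .te6 q ∨ g = .psl 2 (q ^ 6) ∨ g = .psl 3 (q ^ 4) ∨ g = .psp 2 (q ^ 3) ∨ g = .psu 4 (q ^ 3) ∨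
    g = .psu 3 (q ^ 2) ∨ g = .g2 (q ^ 2) ∨ g = .f4 q ∨ g = .td4 q ∨ g = .sz (q ^ 3) ∨ g = .tf4 q

theorem own (hp : p.Prime) (hf : 1 ≤ f) (hg : Cond g) (hch : HasChar p g) (hc : den g * c = num g)
    (hdvd : c ∣ num (.te6 (p ^ f))) (hz : ∀ s, Prim (p ^ f) 12 s → s ∣ c) : Own (p ^ f) g := by
  have hq2 : 2 ≤ p ^ f := hp.two_le.trans (Nat.le_self_pow (by omega) p)
  have hz' : ZT p f 12 c := fun s hs => hz s (prim_pow hf hs)
  have hN0 : 0 < num (.te6 (p ^ f)) := by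
    change 0 < (p ^ f) ^ 36 * (((p ^ f) ^ 2 - 1) * ((p ^ f) ^ 5 + 1) * ((p ^ f) ^ 6 - 1) * ((p ^ f) ^ 8 - 1) *
      ((p ^ f) ^ 9 + 1) * ((p ^ f) ^ 12 - 1))
    have b2 := sub_pos' (d := 2) hq2 (by norm_num)
    have b6 := sub_pos' (d := 6) hq2 (by norm_num)
    have b8 := sub_pos' (d := 8) hq2 (by norm_num)
    have b12 := sub_pos' (d := 12) hq2 (by norm_num)
    positivity
  have hc0 : 0 < c := Nat.pos_of_dvd_of_pos hdvd hN0
  obtain ⟨s4, h4⟩ := exists_prim (q := p ^ f) (e := 4) hq2 (by norm_num) (by omega)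
  obtain ⟨s5, h5⟩ := exists_prim (q := p ^ f) (e := 5) hq2 (by norm_num) (by omega)
  obtain ⟨s9, h9⟩ := exists_prim (q := p ^ f) (e := 9) hq2 (by norm_num) (by omega)
  obtain ⟨s, hs⟩ := exists_prim (q := p) (e := f * 12) hp.two_le (by omega) (by omega)
  have hsc : s ∣ c := hz' s hs
  have hn5 := not_dvd_te6 h5 (Or.inl rfl)
  have hn9 := not_dvd_te6 h9 (Or.inr rfl)
  -- the exponents
  have hex : ∀ f₁, fld g = p ^ f₁ → ∃ i, Xg g i ∧ f * 12 ∣ f₁ * i := by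
    intro f₁ h1
    obtain ⟨f₂, hf₂, hfl, hK, -⟩ := kd_all hp hg hch hc
    have h2 : f₂ = f₁ := Nat.pow_right_injective hp.two_le (hfl.symm.trans h1)
    subst h2
    exact hK.exp hs hsc
  have kl : ∀ {s : ℕ}, s.Prime → s ∣ num g → ¬ s ∣ den g → ¬ s ∣ num (.te6 (p ^ f)) → False :=
    fun hs h1 h2 h3 => kill hs hc hdvd h1 h2 h3
  obtain ⟨f₁, hf₁, h⟩ := charp_te6_12 hp hf hg hch hc hdvd hz'
  rcases h with h | h | h | h | h | h | h | h | h | h | h | h | h | h | h | h | h | h | h | h | h | h | h | h | h | h |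
    h | h | h | h | h | h | h | h | h | h | h | h | h
  -- `i = 18`
  · -- `L₂(q⁹)`
    exfalso
    obtain ⟨h, rfl⟩ := h
    obtain ⟨i, ⟨h1, h2⟩, h3⟩ := hex f₁ rfl
    have := ex_dvd hf h h3
    interval_cases i <;> norm_num at this
  · -- `L₃(q⁶)`
    exfalso
    obtain ⟨h, rfl⟩ := h
    obtain rfl : f₁ = f * 6 := by omega
    refine kl h9.prime ?_ ?_ hn9
    · exact dvd_glN (i := 0) (by norm_num) (dvd_of h9 ⟨2, by ring⟩)
    · intro h1
      change s9 ∣ Nat.gcd 3 (p ^ (f * 6) - 1) * (p ^ (f * 6) - 1) at h1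
      rw [pow_mul] at h1
      rcases h9.prime.dvd_mul.1 h1 with h2 | h2
      · exact h9.not_dvd_sub (by norm_num) (h2.trans (Nat.gcd_dvd_right _ _))
      · exact h9.not_dvd_sub (by norm_num) h2
  · -- `S₄(q^{9/2})`
    exfalso
    obtain ⟨h, rfl⟩ := h
    obtain ⟨i, ⟨h1, h2, -⟩, h3⟩ := hex f₁ rfl
    have := ex_dvd hf h h3
    interval_cases i <;> norm_num at this
  · -- `S₆(q³)`
    exfalso
    obtain ⟨h, rfl⟩ := h
    refine kl h9.prime ?_ (not_dvd_gcd_two h9 (by norm_num) _) hn9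
    exact (dvd_prB (i := 2) (by norm_num) (dvd_of h9 ⟨2, by omega⟩)).mul_left _
  · -- `O₇(q³)`
    exfalso
    obtain ⟨h, rfl⟩ := h
    refine kl h9.prime ?_ (ne_two h9 (by norm_num)) hn9
    exact (dvd_prB (i := 2) (by norm_num) (dvd_of h9 ⟨2, by omega⟩)).mul_left _
  · -- `U₃(q³)`
    exfalso
    obtain ⟨h, rfl⟩ := h
    obtain ⟨i, h1, h3⟩ := hex f₁ rfl
    have := ex_dvd hf h h3
    have h1' : i = 2 ∨ i = 6 := by
      rcases h1 with ⟨h4, h5, h6⟩ | ⟨j, rfl, h5, h6⟩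
      · left; omega
      · omega
    rcases h1' with rfl | rfl <;> norm_num at this
  · -- `U₄(q³)`
    obtain ⟨h, rfl⟩ := h
    obtain rfl : f₁ = f * 3 := by omega
    rw [pow_mul]
    exact Or.inr (Or.inr (Or.inr (Or.inr (Or.inl rfl))))
  · -- `O₈⁺(q³)`
    exfalso
    obtain ⟨h, rfl⟩ := h
    refine kl h9.prime ?_ (not_dvd_gcd_four h9 (by norm_num) _) hn9
    exact ((dvd_prB (i := 2) (by norm_num) (dvd_of h9 ⟨2, by omega⟩)).mul_left _).mul_left _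
  · -- `G₂(q³)`
    exfalso
    obtain ⟨h, rfl⟩ := h
    obtain ⟨i, h1, h3⟩ := hex f₁ rfl
    have := ex_dvd hf h h3
    have h1' : i = 2 ∨ i = 6 := by simpa [Xg] using h1
    rcases h1' with rfl | rfl <;> norm_num at this
  · -- `F₄(q^{3/2})`
    exfalso
    obtain ⟨h, rfl⟩ := h
    refine kl h9.prime ?_ h9.prime.not_dvd_one hn9
    have h6 := dvd_of (k := 6) h9 (f₁ := f₁) ⟨1, by omega⟩
    exact (((h6.mul_left _).mul_right _).mul_right _).mul_left _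
  · -- `²E₆(q)`
    obtain ⟨h, rfl⟩ := h
    obtain rfl : f₁ = f := by omega
    exact Or.inl rfl
  · -- `³D₄(q^{3/2})`
    exfalso
    obtain ⟨h, rfl⟩ := h
    refine kl h9.prime ?_ h9.prime.not_dvd_one hn9
    have h6 := dvd_of (k := 6) h9 (f₁ := f₁) ⟨1, by omega⟩
    exact ((h6.mul_left _).mul_right _).mul_left _
  · -- `Sz(q^{9/2})`
    exfalso
    obtain ⟨h, rfl⟩ := h
    obtain ⟨i, h1, h3⟩ := hex f₁ rfl
    have := ex_dvd hf h h3
    have h1' : i = 1 ∨ i = 4 := by simpa [Xg] using h1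
    rcases h1' with rfl | rfl <;> norm_num at this
  · -- `Ree(q³)`
    exfalso
    obtain ⟨h, rfl⟩ := h
    obtain ⟨i, h1, h3⟩ := hex f₁ rfl
    have := ex_dvd hf h h3
    have h1' : i = 1 ∨ i = 6 := by simpa [Xg] using h1
    rcases h1' with rfl | rfl <;> norm_num at this
  · -- `²F₄(q^{3/2})`
    exfalso
    obtain ⟨h, rfl⟩ := h
    obtain ⟨i, h1, h3⟩ := hex f₁ rfl
    have := ex_dvd hf h h3
    have h1' : i = 1 ∨ i = 6 ∨ i = 4 ∨ i = 12 := by simpa [Xg] using h1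
    rcases h1' with rfl | rfl | rfl | rfl <;> norm_num at this
  -- `i = 12`
  · -- `L₂(q⁶)`
    obtain ⟨h, rfl⟩ := h
    obtain rfl : f₁ = f * 6 := by omega
    rw [pow_mul]
    exact Or.inr (Or.inl rfl)
  · -- `L₃(q⁴)`
    obtain ⟨h, rfl⟩ := h
    obtain rfl : f₁ = f * 4 := by omega
    rw [pow_mul]
    exact Or.inr (Or.inr (Or.inl rfl))
  · -- `L₄(q³)`
    exfalso
    obtain ⟨h, rfl⟩ := h
    obtain rfl : f₁ = f * 3 := by omega
    refine kl h9.prime ?_ ?_ hn9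
    · exact dvd_glN (i := 1) (by norm_num) (dvd_of h9 ⟨1, by ring⟩)
    · intro h1
      change s9 ∣ Nat.gcd 4 (p ^ (f * 3) - 1) * (p ^ (f * 3) - 1) at h1
      rw [pow_mul] at h1
      rcases h9.prime.dvd_mul.1 h1 with h2 | h2
      · exact h9.not_dvd_sub (by norm_num) (h2.trans (Nat.gcd_dvd_right _ _))
      · exact h9.not_dvd_sub (by norm_num) h2
  · -- `L₆(q²)`
    exfalso
    obtain ⟨h, rfl⟩ := h
    obtain rfl : f₁ = f * 2 := by omega
    refine kl h5.prime ?_ ?_ hn5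
    · exact dvd_glN (i := 1) (by norm_num) (dvd_of h5 ⟨2, by ring⟩)
    · intro h1
      change s5 ∣ Nat.gcd 6 (p ^ (f * 2) - 1) * (p ^ (f * 2) - 1) at h1
      rw [pow_mul] at h1
      rcases h5.prime.dvd_mul.1 h1 with h2 | h2
      · exact h5.not_dvd_sub (by norm_num) (h2.trans (Nat.gcd_dvd_right _ _))
      · exact h5.not_dvd_sub (by norm_num) h2
  · -- `S₄(q³)`
    obtain ⟨h, rfl⟩ := h
    obtain rfl : f₁ = f * 3 := by omega
    rw [pow_mul]
    exact Or.inr (Or.inr (Or.inr (Or.inl rfl)))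
  · -- `S₆(q²)`
    exfalso
    obtain ⟨h, rfl⟩ := h
    obtain rfl : f₁ = f * 2 := by omega
    have h6 : Nat.gcd 2 (p ^ (f * 2) - 1) * c = (p ^ (f * 2)) ^ (3 ^ 2) * prB (p ^ (f * 2)) 3 := hc
    rw [prB_three'] at h6
    exact kill_four h4 hq2 hc0 h6 hdvd (not_dvd_gcd_two h4 (by norm_num) _)
  · -- `S₈(q^{3/2})`
    exfalso
    obtain ⟨h, rfl⟩ := h
    refine kl h9.prime ?_ (not_dvd_gcd_two h9 (by norm_num) _) hn9
    exact (dvd_prB (i := 2) (by norm_num) (dvd_of h9 ⟨1, by omega⟩)).mul_left _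
  · -- `S₁₂(q)`
    exfalso
    obtain ⟨h, rfl⟩ := h
    refine kl h5.prime ?_ (not_dvd_gcd_two h5 (by norm_num) _) hn5
    exact (dvd_prB (i := 4) (by norm_num) (dvd_of h5 ⟨2, by omega⟩)).mul_left _
  · -- `O₇(q²)`
    exfalso
    obtain ⟨h, rfl⟩ := h
    obtain rfl : f₁ = f * 2 := by omega
    have h6 : 2 * c = (p ^ (f * 2)) ^ (3 ^ 2) * prB (p ^ (f * 2)) 3 := hc
    rw [prB_three'] at h6
    exact kill_four h4 hq2 hc0 h6 hdvd (ne_two h4 (by norm_num))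
  · -- `O₉(q^{3/2})`
    exfalso
    obtain ⟨h, rfl⟩ := h
    refine kl h9.prime ?_ (ne_two h9 (by norm_num)) hn9
    exact (dvd_prB (i := 2) (by norm_num) (dvd_of h9 ⟨1, by omega⟩)).mul_left _
  · -- `O₁₃(q)`
    exfalso
    obtain ⟨h, rfl⟩ := h
    refine kl h5.prime ?_ (ne_two h5 (by norm_num)) hn5
    exact (dvd_prB (i := 4) (by norm_num) (dvd_of h5 ⟨2, by omega⟩)).mul_left _
  · -- `U₃(q²)`
    obtain ⟨h, rfl⟩ := h
    obtain rfl : f₁ = f * 2 := by omega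
    rw [pow_mul]
    exact Or.inr (Or.inr (Or.inr (Or.inr (Or.inr (Or.inl rfl)))))
  · -- `U₄(q²)`
    exfalso
    obtain ⟨h, rfl⟩ := h
    obtain rfl : f₁ = f * 2 := by omega
    have h6 : Nat.gcd 4 (p ^ (f * 2) + 1) * (p ^ (f * 2) + 1) * c =
        (p ^ (f * 2)) ^ (4 * (4 - 1) / 2) * prU (p ^ (f * 2)) 4 := hc
    have hU : prU (p ^ (f * 2)) 4 = ((p ^ (f * 2)) ^ 1 + 1) * (((p ^ (f * 2)) ^ 2 - 1) * (((p ^ (f * 2)) ^ 3 + 1) *
      (((p ^ (f * 2)) ^ 4 - 1) * 1))) := rfl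
    have e1 : (p ^ (f * 2)) ^ 2 = (p ^ f) ^ 4 := by rw [pow_mul, ← pow_mul]
    have e2 : (p ^ (f * 2)) ^ 4 = (p ^ f) ^ 8 := by rw [pow_mul, ← pow_mul]
    have e3 : (p ^ (f * 2)) ^ 3 = (p ^ f) ^ 6 := by rw [pow_mul, ← pow_mul]
    have e4 : p ^ (f * 2) = (p ^ f) ^ 2 := pow_mul _ _ _
    rw [hU, e1, e2, e3, pow_one, mul_one, e4] at h6
    have h7 : (p ^ f) ^ 12 - 1 = ((p ^ f) ^ 6 - 1) * ((p ^ f) ^ 6 + 1) := by
      have := Nat.sq_sub_sq ((p ^ f) ^ 6) 1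
      rw [one_pow, ← pow_mul] at this
      rw [mul_comm]
      exact this
    have b6 := sub_pos' (d := 6) hq2 (by norm_num)
    refine kill_four (D := Nat.gcd 4 ((p ^ f) ^ 2 + 1) * ((p ^ f) ^ 6 - 1)) (A := ((p ^ f) ^ 2) ^ (4 * (4 - 1) / 2)) h4 hq2 hc0
      ?_ hdvd ?_
    · apply Nat.eq_of_mul_eq_mul_left (show 0 < (p ^ f) ^ 2 + 1 by omega)
      calc ((p ^ f) ^ 2 + 1) * (Nat.gcd 4 ((p ^ f) ^ 2 + 1) * ((p ^ f) ^ 6 - 1) * c)
          = ((p ^ f) ^ 6 - 1) * (Nat.gcd 4 ((p ^ f) ^ 2 + 1) * ((p ^ f) ^ 2 + 1) * c) := by ring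
        _ = ((p ^ f) ^ 6 - 1) * _ := by rw [h6]
        _ = _ := by rw [h7]; ring
    · intro h1
      rcases h4.prime.dvd_mul.1 h1 with h2 | h2
      · exact not_dvd_gcd_four h4 (by norm_num) _ h2
      · exact h4.not_dvd_sub (by norm_num) h2
  · -- `O₈⁺(q²)`
    exfalso
    obtain ⟨h, rfl⟩ := h
    obtain rfl : f₁ = f * 2 := by omega
    have h6 : Nat.gcd 4 ((p ^ (f * 2)) ^ 4 - 1) * c =
        (p ^ (f * 2)) ^ (4 * (4 - 1)) * (((p ^ (f * 2)) ^ 4 - 1) * prB (p ^ (f * 2)) (4 - 1)) := hc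
    have h7 : prB (p ^ (f * 2)) (4 - 1) = ((p ^ f) ^ 4 - 1) * (((p ^ f) ^ 8 - 1) * ((p ^ f) ^ 12 - 1)) := prB_three' p f
    rw [h7, ← mul_assoc] at h6
    exact kill_four h4 hq2 hc0 h6 hdvd (not_dvd_gcd_four h4 (by norm_num) _)
  · -- `O₁₀⁺(q^{3/2})`
    exfalso
    obtain ⟨h, rfl⟩ := h
    refine kl h9.prime ?_ (not_dvd_gcd_four h9 (by norm_num) _) hn9
    exact ((dvd_prB (i := 2) (by norm_num) (dvd_of h9 ⟨1, by omega⟩)).mul_left _).mul_left _
  · -- `O₈⁻(q^{3/2})`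
    exfalso
    obtain ⟨h, rfl⟩ := h
    refine kl h9.prime ?_ (not_dvd_gcd_four h9 (by norm_num) _) hn9
    exact ((dvd_prB (i := 2) (by norm_num) (dvd_of h9 ⟨1, by omega⟩)).mul_left _).mul_left _
  · -- `O₁₂⁻(q)`
    exfalso
    obtain ⟨h, rfl⟩ := h
    refine kl h5.prime ?_ (not_dvd_gcd_four h5 (by norm_num) _) hn5
    exact ((dvd_prB (i := 4) (by norm_num) (dvd_of h5 ⟨2, by omega⟩)).mul_left _).mul_left _
  · -- `G₂(q²)`
    obtain ⟨h, rfl⟩ := h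
    obtain rfl : f₁ = f * 2 := by omega
    rw [pow_mul]
    exact Or.inr (Or.inr (Or.inr (Or.inr (Or.inr (Or.inr (Or.inl rfl))))))
  · -- `F₄(q)`
    obtain ⟨h, rfl⟩ := h
    obtain rfl : f₁ = f := by omega
    exact Or.inr (Or.inr (Or.inr (Or.inr (Or.inr (Or.inr (Or.inr (Or.inl rfl)))))))
  · -- `E₆(q)`
    exfalso
    obtain ⟨h, rfl⟩ := h
    obtain rfl : f₁ = f := by omega
    refine kl h5.prime ?_ (fun h1 => ?_) hn5
    · have h6 := h5.dvd dvd_rfl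
      exact (((((h6.mul_left _).mul_right _).mul_right _).mul_right _).mul_right _).mul_left _
    · exact h5.not_dvd_sub (m := 1) (by norm_num) (by
        rw [pow_one]; exact h1.trans (Nat.gcd_dvd_right _ _))
  · -- `³D₄(q)`
    obtain ⟨h, rfl⟩ := h
    obtain rfl : f₁ = f := by omega
    exact Or.inr (Or.inr (Or.inr (Or.inr (Or.inr (Or.inr (Or.inr (Or.inr (Or.inl rfl))))))))
  · -- `Sz(q³)`
    obtain ⟨h, rfl⟩ := h
    obtain rfl : f₁ = f * 3 := by omega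
    rw [pow_mul]
    exact Or.inr (Or.inr (Or.inr (Or.inr (Or.inr (Or.inr (Or.inr (Or.inr (Or.inr (Or.inl rfl)))))))))
  · -- `Ree(q²)`
    exfalso
    obtain ⟨h, rfl⟩ := h
    obtain rfl : f₁ = f * 2 := by omega
    obtain ⟨m, hm, hm2⟩ := hg
    have h3 : p = 3 := by
      have h4 : p ∣ 3 ^ (2 * m + 1) := by
        rw [← hm2]
        exact dvd_pow_self _ (by omega)
      exact (Nat.prime_dvd_prime_iff_eq hp Nat.prime_three).1 (hp.dvd_of_dvd_pow h4)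
    subst h3
    have := Nat.pow_right_injective (le_refl 2 |>.trans (by norm_num)) hm2
    omega
  · -- `²F₄(q)`
    obtain ⟨h, rfl⟩ := h
    obtain rfl : f₁ = f := by omega
    exact Or.inr (Or.inr (Or.inr (Or.inr (Or.inr (Or.inr (Or.inr (Or.inr (Or.inr (Or.inr rfl)))))))))

end Cfsg.Agent.H682.TE6
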