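import Cfsg.Agent.H363.Wei.One

/-!
# Groups with one big cyclic torus: variants of helper363's theorems (helper682, S3938)

`one_torus'`, `one_torus_core'` : the numerical condition is replaced by the normality of `⟨y⟩` in the groups whose order
divides `e * m`; `normal_of_index`.
-/

set_option autoImplicit false

namespace Cfsg.Agent.H682.TE6

open Subgroup Cfsg.Agent.H56.Exc Cfsg.Agent.H363.Wei

universe u

section Main

variable {G : Type u} [Group G] [Finite G] {n m e : ℕ}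

/-- the order divides `n * K`: the index of the normaliser divides `K` and is `1` modulo `n` -/
theorem normal_of_index (hn : 1 < n) (hbig : ∀ r, r.Prime → r ∣ n → Big G r m e) {y : G} (hy : orderOf y = n) {K : ℕ}
    (hK : Nat.card G ∣ n * K) (h : ∀ i, i ∣ K → (∃ o, i + (n - 1) = o * n) → i = 1) : (zpowers y).Normal := by
  obtain ⟨o, ho⟩ := index_mod hn hbig hy
  rw [← Subgroup.normalizer_eq_top_iff, ← Subgroup.index_eq_one]
  set N := normalizer (zpowers y : Set G) with hN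
  refine h _ ?_ ⟨o, ho⟩
  have h1 : n ∣ Nat.card N := by
    rw [← hy, ← Nat.card_zpowers]
    exact Subgroup.card_dvd_of_le le_normalizer
  have h2 : n * N.index ∣ n * K := by
    refine Dvd.dvd.trans ?_ hK
    rw [← N.index_mul_card, mul_comm]
    exact mul_dvd_mul_left _ h1
  exact Nat.dvd_of_mul_dvd_mul_left (by omega) h2

/-- **One big torus, reduced groups.** -/
theorem one_torus' (hE : CycFixSolv.{u}) (hn : 1 < n) (hbig : ∀ r, r.Prime → r ∣ n → Big G r m e)
    {y : G} (hy : orderOf y = n) (hsm : Nat.card G ∣ e * m → (zpowers y).Normal)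
    (hred : Red G (fun r => r.Prime ∧ r ∣ n)) :
    (zpowers y).Normal ∨ ∃ S : Subgroup G, S.Normal ∧ IsSimpleGroup S ∧ ¬ IsMulCommutative S ∧
      centralizer (S : Set G) = ⊥ ∧ y ∈ S ∧ (∀ r, r.Prime → r ∣ n → Big S r m e ∧ ¬ r ∣ S.index) ∧ S.index ∣ e * m := by
  by_cases hc : Nat.card G ∣ e * m
  · left
    exact hsm hc
  right
  have hR : RFam G (F1 n m e) := by
    refine ⟨?_, ?_, ?_⟩
    · rintro r m' e' ⟨⟨hr, hrn⟩, rfl, rfl⟩
      exact hbig r hr hrn
    · rintro r m' e' ⟨⟨hr, hrn⟩, rfl, rfl⟩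
      exact hrn.trans (hy ▸ orderOf_dvd_natCard y)
    · rintro r m' e' ⟨⟨hr, hrn⟩, rfl, rfl⟩
      exact hc
  have hred' : Red G (Pr (F1 n m e)) := fun N hN h => hred N hN fun r hr => h r (pr_F1.2 hr)
  obtain ⟨r₁, hr₁, hr₁n⟩ := Nat.exists_prime_and_dvd hn.ne'
  obtain ⟨S, hSn, hSs, hSna, hS⟩ := hR.exists_full hE hred' (r₁ := r₁) (m₁ := m) (e₁ := e) ⟨⟨hr₁, hr₁n⟩, rfl, rfl⟩
  have hS' : ∀ r, r.Prime → r ∣ n → Big S r m e ∧ r ∣ Nat.card S ∧ ¬ r ∣ S.index ∧ S.index ∣ e * m :=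
    fun r hr hrn => hS r m e ⟨⟨hr, hrn⟩, rfl, rfl⟩
  have hyS : y ∈ S := by
    have h1 : orderOf (QuotientGroup.mk' S y) ∣ n := hy ▸ orderOf_map_dvd _ y
    have h2 : orderOf (QuotientGroup.mk' S y) ∣ S.index := by
      rw [Subgroup.index]
      exact orderOf_dvd_natCard _
    have h3 : orderOf (QuotientGroup.mk' S y) = 1 := by
      by_contra h4
      obtain ⟨r, hr, hrd⟩ := Nat.exists_prime_and_dvd h4
      exact (hS' r hr (hrd.trans h1)).2.2.1 (hrd.trans h2)
    rw [orderOf_eq_one_iff] at h3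
    exact (QuotientGroup.eq_one_iff y).1 h3
  refine ⟨S, hSn, hSs, hSna, ?_, hyS, fun r hr hrn => ⟨(hS' r hr hrn).1, (hS' r hr hrn).2.2.1⟩, (hS' r₁ hr₁ hr₁n).2.2.2⟩
  obtain ⟨x, hx, hxr⟩ := exists_prime_pow hr₁ (hy ▸ hr₁n : r₁ ∣ orderOf y)
  apply hR.eq_bot_of_solvable hred' inferInstance
  have hxS : x ∈ S := (zpowers_le.2 hyS) hx
  have hle : centralizer (S : Set G) ≤ centralizer {x} := by
    apply centralizer_le
    intro a ha
    rw [Set.mem_singleton_iff] at ha
    rw [ha]; exact hxS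
  apply isSolvable_of_cyclic
  have := (hbig r₁ hr₁ hr₁n).cyc x hxr
  exact isCyclic_of_injective (Subgroup.inclusion hle) (Subgroup.inclusion_injective hle)

/-- **One big torus.** -/
theorem one_torus_core' (hE : CycFixSolv.{u}) (hn : 1 < n) (hbig : ∀ r, r.Prime → r ∣ n → Big G r m e)
    (hsm : ∀ (X : Type u) [Group X] [Finite X] (x : X), (∀ r, r.Prime → r ∣ n → Big X r m e) → orderOf x = n →
      Nat.card X ∣ e * m → (zpowers x).Normal) {y : G} (hy : orderOf y = n) :
    ∃ (O : Subgroup G) (_ : O.Normal), (∀ r, r.Prime → r ∣ n → ¬ r ∣ Nat.card O) ∧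
      (∀ K : Subgroup G, K.Normal → (∀ r, r.Prime → r ∣ n → ¬ r ∣ Nat.card K) → K ≤ O) ∧
      orderOf (QuotientGroup.mk' O y) = n ∧ (∀ r, r.Prime → r ∣ n → Big (G ⧸ O) r m e) ∧
      ((zpowers (QuotientGroup.mk' O y)).Normal ∨ ∃ S : Subgroup (G ⧸ O), S.Normal ∧ IsSimpleGroup S ∧
        ¬ IsMulCommutative S ∧ centralizer (S : Set (G ⧸ O)) = ⊥ ∧ QuotientGroup.mk' O y ∈ S ∧
        (∀ r, r.Prime → r ∣ n → Big S r m e ∧ ¬ r ∣ S.index) ∧ S.index ∣ e * m) := by
  obtain ⟨O, hO, h1, h2⟩ := exists_core G (fun r => r.Prime ∧ r ∣ n) fun r hr => hr.1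
  -- the order of the image
  have hord : orderOf (QuotientGroup.mk' O y) = n := by
    apply Nat.dvd_antisymm (hy ▸ orderOf_map_dvd _ y)
    set k := orderOf (QuotientGroup.mk' O y) with hk
    have h3 : y ^ k ∈ O := by
      rw [← QuotientGroup.eq_one_iff]
      show QuotientGroup.mk' O (y ^ k) = 1
      rw [map_pow, hk, pow_orderOf_eq_one]
    have h4 : orderOf (y ^ k) ∣ Nat.card O := by
      have := orderOf_dvd_natCard (⟨y ^ k, h3⟩ : ↥O)
      rwa [Subgroup.orderOf_mk] at this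
    have h5 : orderOf (y ^ k) = 1 := by
      by_contra h6
      obtain ⟨r, hr, hrd⟩ := Nat.exists_prime_and_dvd h6
      exact h1 r ⟨hr, (hrd.trans (orderOf_pow_dvd k)).trans (hy ▸ dvd_rfl)⟩ (hrd.trans h4)
    rw [orderOf_eq_one_iff] at h5
    rw [← hy]
    exact orderOf_dvd_of_pow_eq_one h5
  have hb : ∀ r, r.Prime → r ∣ n → Big (G ⧸ O) r m e := fun r hr hrn => (hbig r hr hrn).quotient O (h1 r ⟨hr, hrn⟩)
  have hred : Red (G ⧸ O) (fun r => r.Prime ∧ r ∣ n) := by
    intro N hN hNr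
    have h3 : N.comap (QuotientGroup.mk' O) ≤ O := by
      apply h2 _ (hN.comap _)
      intro r hr h
      have h4 : Nat.card (N.comap (QuotientGroup.mk' O)) = Nat.card O * Nat.card N := by
        have h5 := Subgroup.card_mul_index (N.comap (QuotientGroup.mk' O))
        rw [Subgroup.index_comap_of_surjective _ (QuotientGroup.mk'_surjective O)] at h5
        have h6 := Subgroup.card_mul_index N
        have h7 := Subgroup.card_eq_card_quotient_mul_card_subgroup O
        have h8 : 0 < N.index := Nat.pos_of_ne_zero Subgroup.index_ne_zero_of_finite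
        apply Nat.eq_of_mul_eq_mul_right h8
        rw [h5, mul_assoc, h6, h7, mul_comm]
      rw [h4] at h
      rcases hr.1.dvd_mul.1 h with h | h
      · exact h1 r hr h
      · exact hNr r hr h
    rw [eq_bot_iff]
    intro a ha
    obtain ⟨b, rfl⟩ := QuotientGroup.mk'_surjective O a
    have h4 : b ∈ O := h3 ha
    rw [Subgroup.mem_bot]
    exact (QuotientGroup.eq_one_iff b).2 h4
  exact ⟨O, hO, fun r hr hrn => h1 r ⟨hr, hrn⟩, fun K hK hKr => h2 K hK fun r hr => hKr r hr.1 hr.2, hord, hb,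
    one_torus' hE hn hb hord (hsm _ _ hb hord) hred⟩

end Main

end Cfsg.Agent.H682.TE6
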